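import Mathlib
import Cfsg.Agent.Lib.Cores
set_option linter.all false

set_option autoImplicit false

/-!
# Characteristic `p` is inherited by subgroups `H` with a normal subgroup of `G` inside `H` containing all
`p'`-elements of `H`
-/

namespace Cfsg.Agent.H212.CharPInherit

open Subgroup

/-- A finite group all of whose elements of order prime to `p` are trivial is a `p`-group. -/
theorem isPGroup_of_forall_coprime {C : Type*} [Group C] [Finite C] {p : ℕ} [hp : Fact p.Prime]
    (h : ∀ c : C, (orderOf c).Coprime p → c = 1) : IsPGroup p C := by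
  intro x
  have hpos : 0 < orderOf x := orderOf_pos x
  obtain ⟨k, m, hm, hkm⟩ := Nat.exists_eq_pow_mul_and_not_dvd hpos.ne' p hp.out.ne_one
  refine ⟨k, h _ ?_⟩
  have hdvd : p ^ k ∣ orderOf x := ⟨m, hkm⟩
  rw [orderOf_pow_of_dvd (pow_ne_zero _ hp.out.ne_zero) hdvd, hkm,
    Nat.mul_div_cancel_left _ (pow_pos hp.out.pos _)]
  exact ((Nat.Prime.coprime_iff_not_dvd hp.out).2 hm).symm

/-- If `C_G(O_p(G)) ≤ O_p(G)`, `N ⊴ G`, `N ≤ H` and all `p'`-elements of `H` lie in `N` (or `N = H`), then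
`C_H(O_p(H)) ≤ O_p(H)`. -/
theorem centralizer_pCore_le {G : Type*} [Group G] [Finite G] {p : ℕ} [hp : Fact p.Prime]
    (hchar : centralizer (Cfsg.pCore p G : Set G) ≤ Cfsg.pCore p G) (H N : Subgroup G)
    (hN : N.Normal) (hNH : N ≤ H) (hel : ∀ h ∈ H, (orderOf h).Coprime p → h ∈ N) :
    centralizer (Cfsg.pCore p ↥H : Set ↥H) ≤ Cfsg.pCore p ↥H := by
  have := Lib.Cores.pCore_normal (G := ↥H) p
  refine Lib.Cores.le_pCore inferInstance ?_
  have key : ∀ c : ↥H, c ∈ centralizer (Cfsg.pCore p ↥H : Set ↥H) → (orderOf c).Coprime p → c = 1 := by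
    intro c hc hco
    have hco' : (orderOf (c : G)).Coprime p := by rwa [Subgroup.orderOf_coe]
    have hcN : (c : G) ∈ N := hel _ c.2 hco'
    have hQn := Lib.Cores.pCore_normal (G := G) p
    have hQp := Lib.Cores.pCore_isPGroup (G := G) p
    -- `Q ∩ N ≤ O_p(H)`
    have hle : (Cfsg.pCore p G ⊓ N).subgroupOf H ≤ Cfsg.pCore p ↥H := by
      refine Lib.Cores.le_pCore ?_ ?_
      · have : (Cfsg.pCore p G ⊓ N).Normal := Subgroup.normal_inf_normal _ _
        infer_instance
      · have h1 : IsPGroup p ↥(Cfsg.pCore p G ⊓ N) := hQp.to_le inf_le_left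
        exact h1.comap_of_injective H.subtype H.subtype_injective
    have hcQ : (c : G) ∈ centralizer (Cfsg.pCore p G : Set G) := by
      rw [mem_centralizer_iff]
      intro q hq
      set z : G := q * c * q⁻¹ * (c : G)⁻¹ with hz
      have hzQ : z ∈ Cfsg.pCore p G := by
        have h1 := hQn.conj_mem _ (inv_mem hq) (c : G)
        have h2 := mul_mem hq h1
        convert h2 using 1
        rw [hz]; group
      have hzN : z ∈ N := mul_mem (hN.conj_mem _ hcN q) (inv_mem hcN)
      have hzH : z ∈ H := hNH hzN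
      have hzc : z * c = c * z := by
        have h1 : (⟨z, hzH⟩ : ↥H) ∈ Cfsg.pCore p ↥H := hle ⟨hzQ, hzN⟩
        have h2 := mem_centralizer_iff.1 hc _ h1
        exact congrArg Subtype.val h2
      have h3 : q * c * q⁻¹ = z * c := by rw [hz]; group
      have h4 : (z * c) ^ orderOf (c : G) = z ^ orderOf (c : G) := by
        rw [(show Commute z c from hzc).mul_pow, pow_orderOf_eq_one, mul_one]
      have h5 : z ^ orderOf (c : G) = 1 := by
        rw [← h4, ← h3, conj_pow, pow_orderOf_eq_one, mul_one, mul_inv_cancel]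
      have h6 : orderOf z ∣ orderOf (c : G) := orderOf_dvd_of_pow_eq_one h5
      obtain ⟨k, hk⟩ := hQp ⟨z, hzQ⟩
      have h7 : z ^ p ^ k = 1 := congrArg Subtype.val hk
      have h8 : orderOf z ∣ p ^ k := orderOf_dvd_of_pow_eq_one h7
      have h9 : orderOf z = 1 :=
        Nat.eq_one_of_dvd_coprimes (Nat.Coprime.pow_right k hco') h6 h8
      rw [orderOf_eq_one_iff] at h9
      rw [h9, one_mul, mul_inv_eq_iff_eq_mul] at h3
      exact h3
    obtain ⟨k, hk⟩ := hQp ⟨c, hchar hcQ⟩
    have h7 : (c : G) ^ p ^ k = 1 := congrArg Subtype.val hk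
    have h8 : orderOf (c : G) ∣ p ^ k := orderOf_dvd_of_pow_eq_one h7
    have h9 : orderOf (c : G) = 1 :=
      Nat.eq_one_of_dvd_coprimes (Nat.Coprime.pow_right k hco') dvd_rfl h8
    rw [orderOf_eq_one_iff] at h9
    exact Subtype.ext h9
  refine isPGroup_of_forall_coprime ?_
  rintro ⟨c, hc⟩ hco
  apply Subtype.ext
  refine key c hc ?_
  rwa [← Subgroup.orderOf_coe] at hco

end Cfsg.Agent.H212.CharPInherit
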